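import Cfsg.Agent.H72.LocalFixed
import Cfsg.Agent.H19.Cores
import Mathlib

/-!
A `{p,q}`-group with a self-centralising normal `p`-subgroup in which every `q`-element centralises
every characteristic subgroup of a Sylow `p`-subgroup that it normalises is a `p`-group.
-/

set_option autoImplicit false

namespace Cfsg.Agent.H91.Automizer

open Subgroup

universe u

variable {p q : ℕ} [hp : Fact p.Prime] [hq : Fact q.Prime]

/-- A power of `g` is a `q`-element with the same image as `g`, whenever that image is a `q`-element. -/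
theorem exists_qPart {G H : Type*} [Group G] [Finite G] [Group H] (f : G →* H) (g : G) {k : ℕ}
    (hk : f g ^ q ^ k = 1) : ∃ e : ℕ, (∃ j : ℕ, (g ^ e) ^ q ^ j = 1) ∧ f (g ^ e) = f g := by
  obtain ⟨a, m, hm, hg⟩ := Nat.exists_eq_pow_mul_and_not_dvd (orderOf_pos g).ne' q hq.out.ne_one
  obtain ⟨e, he1, he0⟩ :=
    Nat.chineseRemainder (((Nat.Prime.coprime_iff_not_dvd hq.out).2 hm).pow_left k) 1 0
  refine ⟨e, ⟨a, ?_⟩, ?_⟩
  · rw [← pow_mul, ← orderOf_dvd_iff_pow_eq_one, hg, mul_comm e]
    exact Nat.mul_dvd_mul_left _ (Nat.modEq_zero_iff_dvd.1 he0)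
  · rw [map_pow]
    nth_rw 2 [← pow_one (f g)]
    exact pow_eq_pow_iff_modEq.2 (he1.of_dvd (orderOf_dvd_of_pow_eq_one hk))

/-- An element which is both a `p`-element and a `q`-element is trivial. -/
theorem eq_one_of_two_primes {G : Type*} [Group G] (hpq : p ≠ q) {x : G} {a b : ℕ}
    (ha : x ^ p ^ a = 1) (hb : x ^ q ^ b = 1) : x = 1 := by
  rw [← orderOf_eq_one_iff]
  exact Nat.Coprime.eq_one_of_dvd
    ((((Nat.coprime_primes hp.out hq.out).2 hpq).pow a b).coprime_dvd_left
      (orderOf_dvd_of_pow_eq_one ha))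
    (orderOf_dvd_of_pow_eq_one hb)

/-- A `{p,q}`-group without nontrivial `q`-elements is a `p`-group. -/
theorem isPGroup_of_no_qElement {G : Type*} [Group G] [Finite G]
    (hG : ∀ r : ℕ, r.Prime → r ∣ Nat.card G → r = p ∨ r = q)
    (h : ∀ x : G, (∃ j : ℕ, x ^ q ^ j = 1) → x = 1) : IsPGroup p G := by
  refine IsPGroup.of_card (n := (Nat.card G).primeFactorsList.length)
    (Nat.eq_prime_pow_of_unique_prime_dvd Nat.card_pos.ne' fun {r} hr hd => ?_)
  rcases hG r hr hd with rfl | rfl
  · rfl
  obtain ⟨x, hx⟩ := exists_prime_orderOf_dvd_card' r hd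
  have := h x ⟨1, by rw [pow_one, ← hx]; exact pow_orderOf_eq_one x⟩
  rw [this, orderOf_one] at hx
  exact absurd hx.symm hr.ne_one

/-- Preimages of characteristic subgroups of characteristic quotients are characteristic. -/
theorem comap_mk_characteristic {G : Type*} [Group G] (N : Subgroup G) [N.Normal] (hN : N.Characteristic)
    (K : Subgroup (G ⧸ N)) (hK : K.Characteristic) :
    (K.comap (QuotientGroup.mk' N)).Characteristic := by
  refine characteristic_iff_comap_eq.2 fun φ => ?_
  have hφ : N.map φ.toMonoidHom = N := characteristic_iff_map_eq.1 hN φ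
  set ψ := QuotientGroup.congr N N φ hφ with hψ
  have hcomp : (QuotientGroup.mk' N).comp φ.toMonoidHom =
      ψ.toMonoidHom.comp (QuotientGroup.mk' N) := by
    ext x
    rfl
  rw [Subgroup.comap_comap, hcomp, ← Subgroup.comap_comap, characteristic_iff_comap_eq.1 hK ψ]

/-- Central elements of a finite group lie in `J`. -/
theorem mem_thompsonSubgroupAOf_of_central {G : Type*} [Group G] [Finite G] (P : Subgroup G) {z : G}
    (hz : z ∈ P) (hc : ∀ t ∈ P, Commute t z) : z ∈ thompsonSubgroupAOf P := by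
  obtain ⟨A, hA⟩ := H72.exists_isMaxAb P
  refine hA.le_thompson ?_
  set B := Subgroup.closure (insert z (A : Set G)) with hB
  have hsub : insert z (A : Set G) ⊆ P := Set.insert_subset hz hA.1
  have hBP : B ≤ P := (closure_le P).2 hsub
  have hcomm : ∀ x ∈ insert z (A : Set G), ∀ y ∈ insert z (A : Set G), x * y = y * x := by
    rintro x hx y hy
    rcases hx with rfl | hx <;> rcases hy with rfl | hy
    · rfl
    · exact (hc y (hA.1 hy)).eq.symm
    · exact (hc x (hA.1 hx)).eq
    · exact (hA.2.1 x hx y hy).eq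
  have hBc : ∀ a ∈ B, ∀ b ∈ B, Commute a b := fun a ha b hb => by
    have := isMulCommutative_closure hcomm
    exact setLike_mul_comm ha hb
  have hle : A ≤ B := fun a ha => subset_closure (Set.mem_insert_of_mem z ha)
  rw [eq_of_le_of_card_ge hle (hA.2.2 B hBP hBc)]
  exact subset_closure (Set.mem_insert z _)

theorem isPGroup_of_char_fixed {X : Type u} [Group X] [Finite X] (hpq : p ≠ q)
    (h23 : p = 2 → q ≠ 3) (hX : ∀ r : ℕ, r.Prime → r ∣ Nat.card X → r = p ∨ r = q)
    (T : Sylow p X) (R : Subgroup X) [R.Normal] (hRp : IsPGroup p R)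
    (hRc : centralizer (R : Set X) ≤ R)
    (hfix : ∀ W : Subgroup X, W ≤ (T : Subgroup X) → (W.subgroupOf (T : Subgroup X)).Characteristic →
      ∀ x ∈ normalizer (W : Set X), (∃ j : ℕ, x ^ q ^ j = 1) → x ∈ centralizer (W : Set X)) :
    IsPGroup p X := by
  have hRT : R ≤ (T : Subgroup X) := (H19.le_pCore inferInstance hRp).trans (H19.pCore_le_sylow T)
  obtain ⟨W, ⟨hWT, hWn, hWc⟩, hWmax⟩ := Set.Finite.exists_maximal
    (s := {W : Subgroup X | W ≤ (T : Subgroup X) ∧ W.Normal ∧
      (W.subgroupOf (T : Subgroup X)).Characteristic}) (Set.toFinite _)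
    ⟨⊥, bot_le, inferInstance, by rw [bot_subgroupOf]; infer_instance⟩
  have hWfix : ∀ x : X, (∃ j : ℕ, x ^ q ^ j = 1) → x ∈ centralizer (W : Set X) := fun x hx =>
    hfix W hWT hWc x (by rw [normalizer_eq_top_iff.2 hWn]; exact mem_top x) hx
  have hWp : IsPGroup p W := T.2.to_le hWT
  rcases eq_or_lt_of_le hWT with e | hlt
  · refine isPGroup_of_no_qElement hX fun x hx => ?_
    have hxR : x ∈ R := hRc (centralizer_le (SetLike.coe_subset_coe.2 (e ▸ hRT)) (hWfix x hx))
    obtain ⟨a, ha⟩ := hRp ⟨x, hxR⟩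
    obtain ⟨b, hb⟩ := hx
    exact eq_one_of_two_primes hpq (congrArg Subtype.val ha) hb
  exfalso
  set π := QuotientGroup.mk' W with hπ
  have hπs : Function.Surjective π := QuotientGroup.mk'_surjective W
  set TY := T.mapSurjective hπs with hTY
  have hTYc : (TY : Subgroup (X ⧸ W)) = (T : Subgroup X).map π := rfl
  -- the quotient has self-centralising `p`-core
  haveI hRbn : (R.map π).Normal := Subgroup.Normal.map inferInstance π hπs
  have hcore : centralizer ((Cfsg.pCore p (X ⧸ W) : Subgroup (X ⧸ W)) : Set (X ⧸ W)) ≤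
      Cfsg.pCore p (X ⧸ W) := by
    refine le_trans (centralizer_le (SetLike.coe_subset_coe.2
      (H19.le_pCore hRbn (hRp.map π)))) (H19.le_pCore inferInstance ?_)
    refine isPGroup_of_no_qElement (fun r hr hd => hX r hr ?_) fun y hy => ?_
    · refine hd.trans ((card_subgroup_dvd_card _).trans ?_)
      exact card_quotient_dvd_card W
    obtain ⟨⟨y, hyC⟩, k, hk⟩ := y, hy
    obtain ⟨x₀, rfl⟩ := hπs y
    obtain ⟨e, hxq, hxe⟩ := exists_qPart π x₀ (congrArg Subtype.val hk)
    set x := x₀ ^ e with hx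
    obtain ⟨j, hj⟩ := hxq
    have hxW := hWfix x ⟨j, hj⟩
    suffices x = 1 by
      apply Subtype.ext
      show π x₀ = 1
      rw [← hxe, this, map_one]
    have hxR : x ∈ centralizer (R : Set X) := by
      refine mem_centralizer_iff.2 fun r hr => ?_
      set w := r⁻¹ * (x * r * x⁻¹) with hw
      have hwW : w ∈ W := by
        rw [← QuotientGroup.eq_one_iff w]
        show π w = 1
        have h1 := mem_centralizer_iff.1 (hxe ▸ hyC) (π r) (mem_map_of_mem π hr)
        rw [hw, map_mul, map_mul, map_mul, map_inv, map_inv, ← h1]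
        group
      have hxw : x * w * x⁻¹ = w :=
        mul_inv_eq_iff_eq_mul.2 (mem_centralizer_iff.1 hxW w hwW).symm
      have hiter : ∀ n : ℕ, x ^ n * r * (x ^ n)⁻¹ = r * w ^ n := by
        intro n
        induction n with
        | zero => simp
        | succ n ih =>
          have h2 : x * (r * w ^ n) * x⁻¹ = r * w * w ^ n := by
            rw [show x * (r * w ^ n) * x⁻¹ = (x * r * x⁻¹) * (x * w ^ n * x⁻¹) by group,
              ← conj_pow, hxw, hw]
            group
          rw [pow_succ' x n, pow_succ' w n, ← mul_assoc r, ← h2, ← ih]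
          group
      have hw1 : w ^ q ^ j = 1 := by
        have := hiter (q ^ j)
        rw [hj] at this
        simpa using this
      obtain ⟨a, ha⟩ := hWp ⟨w, hwW⟩
      have : w = 1 := eq_one_of_two_primes hpq (congrArg Subtype.val ha) hw1
      rw [hw, inv_mul_eq_one] at this
      exact (mul_inv_eq_iff_eq_mul.1 this.symm).symm
    obtain ⟨a, ha⟩ := hRp ⟨x, hRc hxR⟩
    exact eq_one_of_two_primes hpq (congrArg Subtype.val ha) hj
  -- the Sylow subgroup of the quotient
  haveI := hWc
  haveI : (W.subgroupOf (T : Subgroup X)).Normal := normal_of_characteristic _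
  let ι : ↥(T : Subgroup X) ⧸ W.subgroupOf (T : Subgroup X) →* X ⧸ W :=
    QuotientGroup.map _ W (T : Subgroup X).subtype le_rfl
  have hιinj : Function.Injective ι := by
    refine (injective_iff_map_eq_one ι).2 fun y hy => ?_
    induction y using QuotientGroup.induction_on with
    | H t => exact (QuotientGroup.eq_one_iff t).2 ((QuotientGroup.eq_one_iff (t : X)).1 hy)
  have hιmk : ι.comp (QuotientGroup.mk' _) = π.comp (T : Subgroup X).subtype := rfl
  have hrange : (⊤ : Subgroup _).map ι = (TY : Subgroup (X ⧸ W)) := by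
    rw [hTYc, ← map_top_of_surjective _ (QuotientGroup.mk'_surjective (W.subgroupOf (T : Subgroup X))),
      Subgroup.map_map, hιmk, ← Subgroup.map_map, ← MonoidHom.range_eq_map, range_subtype]
  -- preimages in `T` of characteristic subgroups
  have hpre : ∀ K : Subgroup (↥(T : Subgroup X) ⧸ W.subgroupOf (T : Subgroup X)), K.Characteristic →
      (K.map ι).comap π ≤ (T : Subgroup X) ∧
        (((K.map ι).comap π).subgroupOf (T : Subgroup X)).Characteristic := by
    intro K hK
    constructor
    · have h1 : K.map ι ≤ (T : Subgroup X).map π := by rw [← hTYc, ← hrange]; exact map_mono le_top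
      refine (comap_mono h1).trans ?_
      rw [comap_map_eq, hπ, QuotientGroup.ker_mk', sup_eq_left.2 hWT]
    · have h2 : ((K.map ι).comap π).subgroupOf (T : Subgroup X) =
          K.comap (QuotientGroup.mk' (W.subgroupOf (T : Subgroup X))) := by
        rw [subgroupOf, Subgroup.comap_comap, ← hιmk, ← Subgroup.comap_comap,
          comap_map_eq_self_of_injective hιinj]
      rw [h2]
      exact comap_mk_characteristic _ hWc K hK
  have hJchar : (thompsonSubgroupAOf (⊤ : Subgroup (↥(T : Subgroup X) ⧸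
      W.subgroupOf (T : Subgroup X)))).Characteristic := by
    refine characteristic_iff_map_eq.2 fun φ => ?_
    rw [H72.map_thompsonSubgroupAOf φ.toMonoidHom _ φ.injective.injOn,
      map_top_of_surjective _ φ.surjective]
  have hJι : (thompsonSubgroupAOf (⊤ : Subgroup (↥(T : Subgroup X) ⧸
      W.subgroupOf (T : Subgroup X)))).map ι = thompsonSubgroupAOf (TY : Subgroup (X ⧸ W)) := by
    rw [H72.map_thompsonSubgroupAOf ι _ hιinj.injOn, hrange]
  obtain ⟨hJT, hJc⟩ := hpre _ hJchar
  rw [hJι] at hJT hJc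
  set J := thompsonSubgroupAOf (TY : Subgroup (X ⧸ W)) with hJ
  -- central elements of the Sylow subgroup are central
  have hcentral : ∀ z ∈ (TY : Subgroup (X ⧸ W)), (∀ t ∈ (TY : Subgroup (X ⧸ W)), Commute t z) →
      z ∈ center (X ⧸ W) := by
    intro z hz hzc
    have hzO : z ∈ Cfsg.pCore p (X ⧸ W) :=
      hcore (mem_centralizer_iff.2 fun u hu => (hzc u (H19.pCore_le_sylow TY hu)).eq)
    have hzJ : z ∈ J := mem_thompsonSubgroupAOf_of_central _ hz hzc
    obtain ⟨w, rfl⟩ := hπs z
    set K := normalizer ((J.comap π : Subgroup X) : Set X) with hK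
    have hKπ : (normalizer (J : Set (X ⧸ W))).comap π = K :=
      comap_normalizer_eq_of_surjective _ hπs
    set D := (centralizer ({π w} : Set (X ⧸ W))).comap π with hD
    have hTK : (T : Subgroup X) ≤ K := by
      rw [← hKπ, ← map_le_iff_le_comap, ← hTYc]
      exact H72.le_normalizer_thompsonSubgroupAOf _
    have hTD : (T : Subgroup X) ≤ D := fun t ht =>
      mem_centralizer_singleton_iff.2 (hzc _ (mem_map_of_mem π ht)).eq
    have hp' : ¬ p ∣ D.relIndex K := fun h => T.not_dvd_index
      ((h.trans (relIndex_dvd_of_le_left K hTD)).trans ((relIndex_mul_index hTK) ▸ Dvd.intro _ rfl))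
    have hq' : ¬ q ∣ D.relIndex K := by
      obtain ⟨S⟩ : Nonempty (Sylow q K) := inferInstance
      refine fun h => S.not_dvd_index (h.trans (index_dvd_of_le fun s hs => ?_))
      obtain ⟨j, hj⟩ := S.2 ⟨s, hs⟩
      have hjs : (s : X) ^ q ^ j = 1 := congrArg (fun y : (S : Subgroup K) => ((y : K) : X)) hj
      have hsc := hfix _ hJT hJc (s : X) s.2 ⟨j, hjs⟩
      show π (s : X) ∈ centralizer ({π w} : Set (X ⧸ W))
      rw [mem_centralizer_singleton_iff]
      have := mem_centralizer_iff.1 hsc w hzJ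
      rw [← map_mul, ← map_mul, this]
    have hone : D.relIndex K = 1 := by
      by_contra h
      obtain ⟨r, hr, hd⟩ := Nat.exists_prime_and_dvd h
      rcases hX r hr (hd.trans ((index_dvd_card _).trans (card_subgroup_dvd_card K))) with rfl | rfl
      exacts [hp' hd, hq' hd]
    have hN : ∀ n ∈ normalizer (J : Set (X ⧸ W)), Commute n (π w) := by
      intro n hn
      obtain ⟨m, rfl⟩ := hπs n
      exact mem_centralizer_singleton_iff.1 (relIndex_eq_one.1 hone (hKπ.le hn))
    have hcase : H72.LocalCase p (X ⧸ W) (π w) (π w) := by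
      by_cases h2 : p = 2
      · refine Or.inr (Or.inr ⟨h2, rfl, ?_⟩)
        rintro ⟨A, B, _, ⟨e⟩⟩
        have h3 : 3 ∣ Nat.card X := by
          refine dvd_trans ?_ (card_quotient_dvd_card W)
          refine dvd_trans ?_ (card_subgroup_dvd_card A)
          refine dvd_trans ?_ (card_quotient_dvd_card (B.subgroupOf A))
          rw [Nat.card_congr e.toEquiv, Nat.card_perm, Nat.card_fin]
          decide
        rcases hX 3 Nat.prime_three h3 with h | h
        · omega
        · exact h23 h2 h.symm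
      · exact Or.inl ⟨h2, rfl⟩
    exact mem_center_iff.2 fun g =>
      (H72.local_fixed (p := p) _ (X ⧸ W) rfl TY (π w) (π w) hz hzc hzO hcase hN g).eq
  -- a larger characteristic subgroup
  set Z := (center (↥(T : Subgroup X) ⧸ W.subgroupOf (T : Subgroup X))).map ι with hZ
  have hZc : Z ≤ center (X ⧸ W) := by
    rintro _ ⟨z, hz, rfl⟩
    refine hcentral _ (hrange ▸ mem_map_of_mem ι (mem_top z)) fun t ht => ?_
    rw [← hrange] at ht
    obtain ⟨t, -, rfl⟩ := ht
    exact (Commute.map (show Commute t z from mem_center_iff.1 hz t) ι)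
  have hZn : Z.Normal := ⟨fun z hz g => by
    rw [mem_center_iff.1 (hZc hz) g, mul_inv_cancel_right]; exact hz⟩
  obtain ⟨hZT, hZch⟩ := hpre _ (centerCharacteristic)
  have hWle : W ≤ Z.comap π := (QuotientGroup.ker_mk' W).symm.le.trans (ker_le_comap π Z)
  have heq : Z.comap π ≤ W := hWmax ⟨hZT, hZn.comap π, hZch⟩ hWle
  have hne : Nontrivial (↥(T : Subgroup X) ⧸ W.subgroupOf (T : Subgroup X)) := by
    rw [QuotientGroup.nontrivial_iff, Ne, subgroupOf_eq_top]
    exact hlt.not_ge
  have hcn := (T.2.to_quotient (W.subgroupOf (T : Subgroup X))).center_nontrivial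
  obtain ⟨⟨z, hz⟩, hz1'⟩ :=
    exists_ne (1 : ↥(center (↥(T : Subgroup X) ⧸ W.subgroupOf (T : Subgroup X))))
  have hz1 : z ≠ 1 := fun e => hz1' (Subtype.ext e)
  refine hz1 (hιinj ?_)
  obtain ⟨w, hw⟩ := hπs (ι z)
  rw [map_one, ← hw]
  exact (QuotientGroup.eq_one_iff w).2 (heq (show π w ∈ Z from hw ▸ mem_map_of_mem ι hz))

end Cfsg.Agent.H91.Automizer
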