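import Cfsg.Agent.H19.Cores
import Cfsg.Agent.H20.Basic
import Cfsg.Agent.H20.Sylow
import Cfsg.Agent.H35.Constrained
import Cfsg.Agent.H84.PSolvable
import Mathlib

/-!
A `p`-solvable group has, over each Sylow `p`-subgroup, a Hall `{p,q}`-subgroup.
-/

set_option autoImplicit false

namespace Cfsg.Agent.H91.Automizer

open Subgroup
open scoped Pointwise

universe u

variable {p q : ℕ} [hp : Fact p.Prime] [hq : Fact q.Prime]

/-- A number whose prime divisors avoid those of another one is coprime to it. -/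
theorem coprime_of_primes {a b : ℕ} (h : ∀ r : ℕ, r.Prime → r ∣ b → ¬ r ∣ a) : a.Coprime b :=
  Nat.coprime_of_dvd fun r hr ha hb => h r hr hb ha

/-- The lifting step along a normal subgroup of `{p,q}`-order. -/
theorem lift_step {G : Type u} [Group G] [Finite G] (N : Subgroup G) [N.Normal]
    (hN : ∀ r : ℕ, r.Prime → r ∣ Nat.card N → r = p ∨ r = q) (P : Subgroup G)
    (L : Subgroup (G ⧸ N)) (hP : P.map (QuotientGroup.mk' N) ≤ L)
    (hL : ∀ r : ℕ, r.Prime → r ∣ Nat.card L → r = p ∨ r = q) (hi : ¬ q ∣ L.index) :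
    ∃ L' : Subgroup G, P ≤ L' ∧ (∀ r : ℕ, r.Prime → r ∣ Nat.card L' → r = p ∨ r = q) ∧
      ¬ q ∣ L'.index := by
  refine ⟨L.comap (QuotientGroup.mk' N), map_le_iff_le_comap.1 hP, fun r hr hd => ?_, ?_⟩
  · have h1 : Nat.card (L.comap (QuotientGroup.mk' N)) = Nat.card L * Nat.card N := by
      refine Nat.eq_of_mul_eq_mul_right (Nat.pos_of_ne_zero (L.index_ne_zero_of_finite)) ?_
      rw [mul_right_comm, L.card_mul_index,
        ← index_comap_of_surjective L (QuotientGroup.mk'_surjective N), card_mul_index]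
      exact card_eq_card_quotient_mul_card_subgroup N
    rw [h1] at hd
    exact (hr.dvd_mul.1 hd).elim (hL r hr) (hN r hr)
  · rwa [index_comap_of_surjective L (QuotientGroup.mk'_surjective N)]

/-- Hall `{p,q}`-subgroups of `p`-solvable groups. -/
theorem exists_pq_subgroup (hpq : p ≠ q) (n : ℕ) : ∀ (G : Type u) [Group G] [Finite G],
    Nat.card G = n → Cfsg.IsPSolvable p G → ∀ P : Sylow p G,
      ∃ L : Subgroup G, (P : Subgroup G) ≤ L ∧
        (∀ r : ℕ, r.Prime → r ∣ Nat.card L → r = p ∨ r = q) ∧ ¬ q ∣ L.index := by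
  induction n using Nat.strong_induction_on with
  | _ n ih =>
  intro G _ _ hn hsol P
  -- the quotient step
  have hquot : ∀ N : Subgroup G, N.Normal → N ≠ ⊥ →
      (∀ r : ℕ, r.Prime → r ∣ Nat.card N → r = p ∨ r = q) →
      ∃ L : Subgroup G, (P : Subgroup G) ≤ L ∧
        (∀ r : ℕ, r.Prime → r ∣ Nat.card L → r = p ∨ r = q) ∧ ¬ q ∣ L.index := by
    intro N hNn hN hNr
    have hlt : Nat.card (G ⧸ N) < n := by
      rw [← hn, card_eq_card_quotient_mul_card_subgroup N]
      exact lt_mul_of_one_lt_right Nat.card_pos ((one_lt_card_iff_ne_bot N).2 hN)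
    obtain ⟨L, h1, h2, h3⟩ := ih _ hlt _ rfl
      (H84.isPSolvable_of_surjective _ (QuotientGroup.mk'_surjective N) hsol)
      (P.mapSurjective (QuotientGroup.mk'_surjective N))
    exact lift_step N hNr _ L h1 h2 h3
  rcases subsingleton_or_nontrivial G with hG | hG
  · refine ⟨⊤, le_top, fun r hr hd => ?_, by rw [index_top]; exact hq.out.not_dvd_one⟩
    rw [card_top, Nat.card_eq_one_iff_unique.2 ⟨hG, ⟨1⟩⟩, Nat.dvd_one] at hd
    exact absurd hd hr.ne_one
  rcases H84.pCore_ne_bot_or_pPrimeCore_ne_bot hsol with hO | hO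
  · refine hquot _ (H19.pCore_normal p G) hO fun r hr hd => Or.inl ?_
    obtain ⟨k, hk⟩ := (H19.pCore_isPGroup (G := G) p).exists_card_eq
    rw [hk] at hd
    exact (Nat.prime_dvd_prime_iff_eq hr hp.out).1 (hr.dvd_of_dvd_pow hd)
  set M := Cfsg.pPrimeCore p G with hM
  haveI hMn : M.Normal := H19.pPrimeCore_normal p G
  have hMc : (Nat.card M).Coprime p := H19.pPrimeCore_coprime p
  have hlt : Nat.card (G ⧸ M) < n := by
    rw [← hn, card_eq_card_quotient_mul_card_subgroup M]
    exact lt_mul_of_one_lt_right Nat.card_pos ((one_lt_card_iff_ne_bot M).2 hO)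
  obtain ⟨L₁, hPL, hLr, hLi⟩ := ih _ hlt _ rfl
    (H84.isPSolvable_of_surjective _ (QuotientGroup.mk'_surjective M) hsol)
    (P.mapSurjective (QuotientGroup.mk'_surjective M))
  -- the subgroup step
  have hsub : ∀ Y : Subgroup G, Y ≠ ⊤ → (P : Subgroup G) ≤ Y → ¬ q ∣ Y.index →
      ∃ L : Subgroup G, (P : Subgroup G) ≤ L ∧
        (∀ r : ℕ, r.Prime → r ∣ Nat.card L → r = p ∨ r = q) ∧ ¬ q ∣ L.index := by
    intro Y hY hPY hYi
    obtain ⟨L, h1, h2, h3⟩ := ih _ (hn ▸ H19.card_lt_of_ne_top Y hY) Y rfl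
      (H35.isPSolvable_subgroup hsol Y) (P.subtype hPY)
    refine ⟨L.map Y.subtype, ?_, ?_, ?_⟩
    · rw [← map_subgroupOf_eq_of_le hPY]
      rw [Sylow.coe_subtype] at h1
      exact map_mono h1
    · rw [card_map_of_injective Y.subtype_injective]
      exact h2
    · rw [index_map_subtype]
      exact hq.out.not_dvd_mul h3 hYi
  by_cases hY : L₁.comap (QuotientGroup.mk' M) = ⊤
  swap
  · exact hsub _ hY (map_le_iff_le_comap.1 hPL)
      (by rwa [index_comap_of_surjective L₁ (QuotientGroup.mk'_surjective M)])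
  have hMi : ∀ r : ℕ, r.Prime → r ∣ M.index → r = p ∨ r = q := by
    have hL : L₁ = ⊤ := by
      rw [← map_comap_eq_self_of_surjective (QuotientGroup.mk'_surjective M) L₁, hY,
        map_top_of_surjective _ (QuotientGroup.mk'_surjective M)]
    intro r hr hd
    refine hLr r hr ?_
    rw [hL, card_top]
    exact hd
  -- a Sylow `q`-subgroup of the `p'`-core normalised by `P`
  obtain ⟨k, hk⟩ := P.2.exists_card_eq
  obtain ⟨Q, hQ⟩ := H20.exists_invariant_sylow (A := (P : Subgroup G)) (K := M)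
    (le_top.trans_eq (normalizer_eq_top_iff.2 hMn).symm)
    (by rw [hk]; exact (hMc.symm.pow_left k))
    (Or.inl (H20.isSolvable_of_isPGroup P.2)) q
  set Q' := (Q : Subgroup M).map M.subtype with hQ'
  set N := normalizer (Q' : Set G) with hN
  have hNi : ¬ q ∣ N.index := by
    have h1 : N.index = N.relIndex M := by
      have e1 := relIndex_mul_index (inf_le_left : N ⊓ M ≤ N)
      have e2 := relIndex_mul_index (inf_le_right : N ⊓ M ≤ M)
      rw [inf_relIndex_left] at e1
      rw [inf_relIndex_right] at e2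
      have e3 : M.relIndex N = M.index := by
        rw [← relIndex_sup_right (H := N), hN, hQ', Sylow.normalizer_sup_eq_top Q, relIndex_top_right]
      rw [e3, ← e2, mul_comm (N.relIndex M)] at e1
      exact Nat.eq_of_mul_eq_mul_left (Nat.pos_of_ne_zero M.index_ne_zero_of_finite) e1
    have h2 : N.relIndex M ∣ (Q : Subgroup M).index := by
      rw [← comap_map_eq_self_of_injective M.subtype_injective (Q : Subgroup M)]
      exact relIndex_dvd_of_le_left M (le_normalizer (H := Q'))
    rw [h1]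
    exact fun h => Q.not_dvd_index (h.trans h2)
  by_cases hNt : N = ⊤
  swap
  · exact hsub N hNt hQ hNi
  have hQn : Q'.Normal := normalizer_eq_top_iff.1 hNt
  by_cases hQb : Q' = ⊥
  swap
  · refine hquot Q' hQn hQb fun r hr hd => Or.inr ?_
    obtain ⟨j, hj⟩ := (Q.2.map M.subtype).exists_card_eq
    rw [hQ', hj] at hd
    exact (Nat.prime_dvd_prime_iff_eq hr hq.out).1 (hr.dvd_of_dvd_pow hd)
  have hMq : ¬ q ∣ Nat.card M := by
    have := Q.not_dvd_index
    rwa [(map_eq_bot_iff_of_injective _ M.subtype_injective).1 hQb, index_bot] at this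
  have hMp : ¬ p ∣ Nat.card M := fun h => hp.out.ne_one (Nat.Coprime.eq_one_of_dvd hMc.symm h)
  obtain ⟨K, hK⟩ := exists_right_complement'_of_coprime (N := M) (coprime_of_primes fun r hr hd hd' => by
    rcases hMi r hr hd with rfl | rfl
    exacts [hMp hd', hMq hd'])
  have hKi : K.index = Nat.card M := hK.index_eq_card
  have hKc : Nat.card K = M.index := hK.symm.index_eq_card.symm
  obtain ⟨PK⟩ : Nonempty (Sylow p K) := inferInstance
  set P' := (PK.2.map K.subtype).toSylow (by
    rw [index_map_subtype, hKi]; exact hp.out.not_dvd_mul PK.not_dvd_index hMp) with hP'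
  obtain ⟨g, hg⟩ := MulAction.exists_smul_eq G P' P
  refine ⟨K.map (MulAut.conj g).toMonoidHom, ?_, ?_, ?_⟩
  · rw [← hg, Sylow.coe_subgroup_smul]
    exact map_mono (map_subtype_le _)
  · rw [card_map_of_injective (MulAut.conj g).injective, hKc]
    exact hMi
  · rw [index_map_of_bijective (MulAut.conj g).bijective, hKi]
    exact hMq

end Cfsg.Agent.H91.Automizer
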