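import Cfsg.Agent.H91.Automizer.PQHall
import Cfsg.Agent.H91.Automizer.Core
import Cfsg.Agent.H34.Quotient
import Cfsg.Agent.H59.PSolvable
import Cfsg.Agent.H22.PResidual

/-!
Primes dividing the order of a `p`-subgroup automizer move to subgroups normal in a Sylow subgroup.
-/

set_option autoImplicit false

namespace Cfsg.Agent.H91.Automizer

open Subgroup
open scoped Pointwise

universe u

variable {p q : ℕ} [hp : Fact p.Prime] [hq : Fact q.Prime]

/-- Some `q`-element normalises `H` without centralising it. -/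
def Moves (q : ℕ) {G : Type*} [Group G] (H : Subgroup G) : Prop :=
  ∃ x ∈ normalizer (H : Set G), (∃ j : ℕ, x ^ q ^ j = 1) ∧ x ∉ centralizer (H : Set G)

omit hp in
/-- `Moves` says that `q` divides the order of the automizer. -/
theorem moves_iff {G : Type*} [Group G] [Finite G] (H : Subgroup G) :
    Moves q H ↔ q ∣ ((centralizer (H : Set G)).subgroupOf (normalizer (H : Set G))).index := by
  set C := (centralizer (H : Set G)).subgroupOf (normalizer (H : Set G)) with hC
  constructor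
  · rintro ⟨x, hx, ⟨j, hj⟩, hxC⟩
    set y := QuotientGroup.mk' C ⟨x, hx⟩ with hy
    have hy1 : y ^ q ^ j = 1 := by
      rw [hy, ← map_pow, show (⟨x, hx⟩ : normalizer (H : Set G)) ^ q ^ j = 1 from Subtype.ext hj,
        map_one]
    obtain ⟨i, -, hi⟩ := (Nat.dvd_prime_pow hq.out).1 (orderOf_dvd_of_pow_eq_one hy1)
    have hi0 : i ≠ 0 := by
      rintro rfl
      rw [pow_zero, orderOf_eq_one_iff] at hi
      exact hxC ((QuotientGroup.eq_one_iff (N := C) (⟨x, hx⟩ : normalizer (H : Set G))).1 hi)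
    exact ((dvd_pow_self q hi0).trans (hi ▸ orderOf_dvd_natCard y))
  · intro h
    obtain ⟨y, hy⟩ := exists_prime_orderOf_dvd_card' q (h : q ∣ Nat.card (_ ⧸ C))
    obtain ⟨x, rfl⟩ := QuotientGroup.mk'_surjective C y
    obtain ⟨e, ⟨j, hj⟩, he⟩ := exists_qPart (q := q) (QuotientGroup.mk' C) x (k := 1)
      (by rw [pow_one, ← hy]; exact pow_orderOf_eq_one _)
    refine ⟨_, (x ^ e).2, ⟨j, congrArg Subtype.val hj⟩, fun hc => ?_⟩
    rw [← he, show QuotientGroup.mk' C (x ^ e) = 1 from (QuotientGroup.eq_one_iff _).2 hc,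
      orderOf_one] at hy
    exact hq.out.ne_one hy.symm

/-- Pairs of a moved `p`-subgroup and a `p`-subgroup normalising it and containing it. -/
def Pairs (p q : ℕ) (G : Type*) [Group G] : Set (Subgroup G × Subgroup G) :=
  {a | a.1 ≤ a.2 ∧ IsPGroup p a.2 ∧ a.2 ≤ normalizer (a.1 : Set G) ∧ Moves q a.1}

omit hp hq in
/-- `Moves` is invariant under conjugation. -/
theorem Moves.map_conj {G : Type*} [Group G] {H : Subgroup G} (h : Moves q H) (g : G) :
    Moves q (H.map (MulAut.conj g).toMonoidHom) := by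
  obtain ⟨x, hx, ⟨j, hj⟩, hxC⟩ := h
  refine ⟨(MulAut.conj g) x, le_normalizer_map _ ⟨x, hx, rfl⟩, ⟨j, ?_⟩, fun hc => hxC ?_⟩
  · rw [← map_pow, hj, map_one]
  · refine mem_centralizer_iff.2 fun u hu => (MulAut.conj g).injective ?_
    rw [map_mul, map_mul]
    exact mem_centralizer_iff.1 hc _ (mem_map_of_mem _ hu)

/-- A conjugation invariant description of elements normalising a join. -/
theorem mem_normalizer_sup {G : Type*} [Group G] {A B : Subgroup G} {g : G}
    (hA : g ∈ normalizer (A : Set G)) (hB : g ∈ normalizer (B : Set G)) :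
    g ∈ normalizer ((A ⊔ B : Subgroup G) : Set G) := by
  rw [mem_normalizer_iff_map_conj_eq] at *
  rw [Subgroup.map_sup, hA, hB]

/-- The `p`-subgroup may be taken self-centralising in `T`. -/
theorem exists_centric {G : Type*} [Group G] [Finite G] {H T : Subgroup G}
    (hHT : H ≤ T) (hTN : T ≤ normalizer (H : Set G))
    (hTS : IsPGroup p T) (hTi : ¬ p ∣ T.relIndex (normalizer (H : Set G))) (hm : Moves q H) :
    ∃ R : Subgroup G, R ≤ T ∧ T ≤ normalizer (R : Set G) ∧ Moves q R ∧
      T ⊓ centralizer (R : Set G) ≤ R := by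
  set C := centralizer (H : Set G) with hC
  refine ⟨H ⊔ T ⊓ C, sup_le hHT inf_le_left, fun t ht => mem_normalizer_sup (hTN ht) ?_, ?_, ?_⟩
  · rw [mem_normalizer_iff]
    intro y
    have hH := mem_normalizer_iff.1 (hTN ht)
    constructor
    · rintro ⟨h1 : y ∈ T, h2 : y ∈ C⟩
      refine ⟨T.mul_mem (T.mul_mem ht h1) (T.inv_mem ht), mem_centralizer_iff.2 fun u hu => ?_⟩
      have h3 : t⁻¹ * u * t ∈ H := (hH _).2 (by simpa [mul_assoc] using hu)
      calc u * (t * y * t⁻¹) = t * ((t⁻¹ * u * t) * y) * t⁻¹ := by group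
        _ = t * (y * (t⁻¹ * u * t)) * t⁻¹ := by rw [mem_centralizer_iff.1 h2 _ h3]
        _ = t * y * t⁻¹ * u := by group
    · rintro ⟨h1 : t * y * t⁻¹ ∈ T, h2 : t * y * t⁻¹ ∈ C⟩
      refine ⟨by simpa [mul_assoc] using T.mul_mem (T.mul_mem (T.inv_mem ht) h1) ht,
        mem_centralizer_iff.2 fun u hu => ?_⟩
      have h3 := mem_centralizer_iff.1 h2 _ ((hH u).1 hu)
      calc u * y = t⁻¹ * ((t * u * t⁻¹) * (t * y * t⁻¹)) * t := by group
        _ = t⁻¹ * ((t * y * t⁻¹) * (t * u * t⁻¹)) * t := by rw [h3]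
        _ = y * u := by group
  · obtain ⟨x, hx, ⟨j, hj⟩, hxC⟩ := hm
    set N := normalizer (H : Set G) with hN
    haveI hCn : (C.subgroupOf N).Normal := inferInstance
    set T' : Sylow p N := (hTS.of_equiv (subgroupOfEquivOfLe hTN).symm).toSylow hTi with hT'
    have hT'c : (T' : Subgroup N) = T.subgroupOf N := rfl
    set I := (T' : Subgroup N) ⊓ C.subgroupOf N with hI
    have hfrat : normalizer (I : Set N) ⊔ C.subgroupOf N = ⊤ := by
      have hp' : IsPGroup p (I.subgroupOf (C.subgroupOf N)) :=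
        (T'.2.to_le inf_le_left).of_equiv (subgroupOfEquivOfLe inf_le_right).symm
      have hidx : ¬ p ∣ (I.subgroupOf (C.subgroupOf N)).index := by
        show ¬ p ∣ I.relIndex (C.subgroupOf N)
        rw [hI, inf_relIndex_right]
        exact H22.sylow_not_dvd_relIndex_normal T' _
      have h := Sylow.normalizer_sup_eq_top (hp'.toSylow hidx)
      rwa [show ((hp'.toSylow hidx) : Subgroup (C.subgroupOf N)).map (C.subgroupOf N).subtype = I from
        map_subgroupOf_eq_of_le inf_le_right] at h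
    obtain ⟨n, hn, c, hc, hnc⟩ := mem_sup_of_normal_right.1
      (show (⟨x, hx⟩ : N) ∈ normalizer (I : Set N) ⊔ C.subgroupOf N by rw [hfrat]; exact mem_top _)
    set f := QuotientGroup.mk' (C.subgroupOf N) with hf
    have hfn : f n = f ⟨x, hx⟩ := by
      rw [← hnc, map_mul, show f c = 1 from (QuotientGroup.eq_one_iff c).2 hc, mul_one]
    obtain ⟨e, ⟨i, hi⟩, he⟩ := exists_qPart (q := q) f n (k := j)
      (by rw [hfn, ← map_pow, show (⟨x, hx⟩ : N) ^ q ^ j = 1 from Subtype.ext hj, map_one])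
    have hne : ((n ^ e : N) : G) ∉ C := fun h => hxC (by
      have : f ⟨x, hx⟩ = 1 := by
        rw [← hfn, ← he]
        exact (QuotientGroup.eq_one_iff _).2 h
      exact (QuotientGroup.eq_one_iff (⟨x, hx⟩ : N)).1 this)
    refine ⟨_, mem_normalizer_sup (n ^ e).2 ?_, ⟨i, congrArg Subtype.val hi⟩, fun h => hne
      (centralizer_le (SetLike.coe_subset_coe.2 le_sup_left) h)⟩
    have hI' : I = (T ⊓ C).subgroupOf N := by
      rw [hI, hT'c, subgroupOf, subgroupOf, subgroupOf, comap_inf]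
    rw [← map_subgroupOf_eq_of_le (inf_le_left.trans hTN : T ⊓ C ≤ N)]
    exact le_normalizer_map _ ⟨n ^ e, hI' ▸ pow_mem hn e, rfl⟩
  · exact fun t ht => mem_sup_right ⟨ht.1, centralizer_le (SetLike.coe_subset_coe.2 le_sup_left) ht.2⟩

omit hp hq in
/-- The image of a characteristic subgroup of `T` is normalised by `N(T)`. -/
theorem normalizer_le_normalizer_map {G : Type*} [Group G] {T : Subgroup G} {W : Subgroup T}
    (hW : W.Characteristic) : normalizer (T : Set G) ≤ normalizer (W.map T.subtype : Set G) := by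
  intro g hg
  rw [mem_normalizer_iff_map_conj_eq] at *
  let φ : ↥T ≃* ↥T := ((MulAut.conj g).subgroupMap T).trans (MulEquiv.subgroupCongr hg)
  conv_rhs => rw [← characteristic_iff_map_eq.1 hW φ]
  rw [Subgroup.map_map, Subgroup.map_map]
  rfl

/-- The key step: `T` maximal, then nothing moves. -/
theorem not_moves {G : Type u} [Group G] [Finite G] (hpq : p ≠ q) (h23 : p = 2 → q ≠ 3)
    {H T : Subgroup G} (hHT : H ≤ T) (hTN : T ≤ normalizer (H : Set G))
    (hTS : IsPGroup p T) (hTi : ¬ p ∣ T.relIndex (normalizer (H : Set G)))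
    (hcen : T ⊓ centralizer (H : Set G) ≤ H)
    (hsol : Cfsg.IsPSolvable p (↥(normalizer (H : Set G)) ⧸
      (centralizer (H : Set G)).subgroupOf (normalizer (H : Set G))))
    (hstar : ∀ W : Subgroup G, W ≤ T → normalizer (T : Set G) ≤ normalizer (W : Set G) →
      ∀ x ∈ normalizer (W : Set G), (∃ j : ℕ, x ^ q ^ j = 1) → x ∈ centralizer (W : Set G)) :
    ¬ Moves q H := by
  rw [moves_iff]
  intro hqd
  set N := normalizer (H : Set G) with hN
  set C := (centralizer (H : Set G)).subgroupOf N with hC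
  haveI hCn : C.Normal := inferInstance
  set T' : Sylow p N := (hTS.of_equiv (subgroupOfEquivOfLe hTN).symm).toSylow hTi with hT'
  set π := QuotientGroup.mk' C with hπ
  obtain ⟨L, hTL, hLr, hLi⟩ := exists_pq_subgroup (p := p) (q := q) hpq _ _ rfl hsol
    (T'.mapSurjective (QuotientGroup.mk'_surjective C))
  have hqL : q ∣ Nat.card L := by
    have : q ∣ Nat.card L * L.index := by rw [card_mul_index]; exact hqd
    exact (hq.out.dvd_mul.1 this).resolve_right hLi
  set M := L.comap π with hM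
  have hT'M : (T' : Subgroup N) ≤ M := map_le_iff_le_comap.1 hTL
  set T₀ : Sylow p M := T'.subtype hT'M with hT₀
  set ι : M →* G := N.subtype.comp M.subtype with hι
  have hιinj : Function.Injective ι := N.subtype_injective.comp M.subtype_injective
  let jT : ↥T →* M :=
    (((inclusion hTN : ↥T →* N)).codRestrict M fun t => hT'M (show (t : G) ∈ T from t.2))
  have hιj : ι.comp jT = T.subtype := rfl
  have hjrange : (⊤ : Subgroup T).map jT = (T₀ : Subgroup M) := by
    rw [hT₀, Sylow.coe_subtype]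
    ext m
    constructor
    · rintro ⟨t, -, rfl⟩; exact t.2
    · intro hm; exact ⟨⟨_, hm⟩, mem_top _, rfl⟩
  -- `H` inside `M`
  set Hm := H.comap ι with hHm
  haveI hHn : Hm.Normal := by
    constructor
    intro y hy g
    show ι (g * y * g⁻¹) ∈ H
    rw [map_mul, map_mul, map_inv]
    exact (mem_normalizer_iff.1 (g : N).2 _).1 hy
  have hHp : IsPGroup p Hm := (hTS.to_le hHT).comap_of_injective _ hιinj
  set C₀ := C.subgroupOf M with hC₀
  have hC₀mem : ∀ m : M, m ∈ C₀ ↔ ι m ∈ centralizer (H : Set G) := fun m => Iff.rfl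
  haveI hC₀n : C₀.Normal := inferInstance
  set O := Cfsg.pPrimeCore p M with hO
  haveI hOn : O.Normal := H19.pPrimeCore_normal p M
  have hOc : (Nat.card O).Coprime p := H19.pPrimeCore_coprime p
  have hOC : O ≤ C₀ := by
    intro o ho
    rw [hC₀mem, mem_centralizer_iff]
    intro u hu
    have huM : ∃ m : M, ι m = u := ⟨jT ⟨u, hHT hu⟩, rfl⟩
    obtain ⟨m, rfl⟩ := huM
    rw [← map_mul, ← map_mul]
    exact congrArg ι (commute_of_normal_of_disjoint Hm O hHn hOn
      (disjoint_iff.2 (H19.inf_eq_bot_of_isPGroup_coprime hHp hOc)) m o hu ho).eq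
  set Z := Hm ⊓ C₀ with hZ
  have hZp : IsPGroup p Z := hHp.to_le inf_le_left
  have hCZO : C₀ ≤ Z ⊔ O := by
    refine H59.le_sup_pPrimeCore_of_central inf_le_right hZp (fun z hz x hx => ?_) ?_
    · refine hιinj ?_
      rw [map_mul, map_mul]
      exact (mem_centralizer_iff.1 ((hC₀mem x).1 hx) _ hz.1).symm
    · intro h
      have hle : (T₀ : Subgroup M) ⊓ C₀ ≤ Z := fun m hm => ⟨hcen ⟨hm.1, hm.2⟩, hm.2⟩
      have h2 := h.trans (relIndex_dvd_of_le_left C₀ hle)
      rw [inf_relIndex_right] at h2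
      exact H22.sylow_not_dvd_relIndex_normal T₀ C₀ h2
  have hC₀i : C₀.index = Nat.card L := by
    show C.relIndex M = Nat.card L
    rw [← QuotientGroup.ker_mk' C, relIndex_ker]
    refine Nat.card_congr (Equiv.setCongr ?_)
    exact congrArg (fun K : Subgroup (↥N ⧸ C) => ((K : Set (↥N ⧸ C))))
      (map_comap_eq_self_of_surjective (QuotientGroup.mk'_surjective C) L)
  set ρ := QuotientGroup.mk' O with hρ
  have hρs : Function.Surjective ρ := QuotientGroup.mk'_surjective O
  have hX : ∀ r : ℕ, r.Prime → r ∣ Nat.card (M ⧸ O) → r = p ∨ r = q := by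
    intro r hr hd
    have he := relIndex_mul_index (le_sup_right : O ≤ Z ⊔ O)
    rw [relIndex_sup_right] at he
    change r ∣ O.index at hd
    rw [← he] at hd
    rcases hr.dvd_mul.1 hd with h | h
    · obtain ⟨k, hk⟩ := hZp.exists_card_eq
      have := h.trans (relIndex_dvd_card O Z)
      rw [hk] at this
      exact Or.inl ((Nat.prime_dvd_prime_iff_eq hr hp.out).1 (hr.dvd_of_dvd_pow this))
    · exact hLr r hr (hC₀i ▸ h.trans (index_dvd_of_le hCZO))
  set TX := T₀.mapSurjective hρs with hTX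
  have hTXc : (TX : Subgroup (M ⧸ O)) = (T₀ : Subgroup M).map ρ := rfl
  haveI : (Hm.map ρ).Normal := hHn.map ρ hρs
  have hRc : centralizer ((Hm.map ρ : Subgroup (M ⧸ O)) : Set (M ⧸ O)) ≤ Hm.map ρ := by
    intro y hy
    obtain ⟨g, rfl⟩ := hρs y
    have hg : g ∈ C₀ := by
      rw [hC₀mem, mem_centralizer_iff]
      intro u hu
      obtain ⟨m, rfl⟩ : ∃ m : M, ι m = u := ⟨jT ⟨u, hHT hu⟩, rfl⟩
      have h1 := mem_centralizer_iff.1 hy (ρ m) (mem_map_of_mem ρ hu)
      rw [← map_mul, ← map_mul] at h1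
      have h2 : (m * g)⁻¹ * (g * m) ∈ Hm ⊓ O := by
        refine ⟨?_, QuotientGroup.eq.1 h1⟩
        have := mul_mem (hHn.conj_mem m⁻¹ (inv_mem hu) g⁻¹) hu
        simpa [mul_assoc] using this
      rw [H19.inf_eq_bot_of_isPGroup_coprime hHp hOc, mem_bot, inv_mul_eq_one] at h2
      rw [← map_mul, ← map_mul, h2]
    obtain ⟨z, hz, o, ho, rfl⟩ := mem_sup_of_normal_right.1 (hCZO hg)
    rw [map_mul, show ρ o = 1 from (QuotientGroup.eq_one_iff o).2 ho, mul_one]
    exact mem_map_of_mem ρ hz.1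
  have hPX : IsPGroup p (M ⧸ O) := by
    refine isPGroup_of_char_fixed hpq h23 hX TX (Hm.map ρ) (hHp.map ρ) hRc ?_
    intro W hW hWc x hx ⟨k, hk⟩
    have hjTmem : ∀ t : T, ρ (jT t) ∈ (TX : Subgroup (M ⧸ O)) := fun t =>
      hTXc ▸ mem_map_of_mem ρ (hjrange ▸ mem_map_of_mem jT (mem_top t))
    have hbij : Function.Bijective ((ρ.comp jT).codRestrict (TX : Subgroup (M ⧸ O)) hjTmem) := by
      refine ⟨(injective_iff_map_eq_one _).2 fun t ht => ?_, fun y => ?_⟩
      · have h1 : jT t ∈ (T₀ : Subgroup M) ⊓ O :=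
          ⟨hjrange ▸ mem_map_of_mem jT (mem_top t),
            (QuotientGroup.eq_one_iff _).1 (congrArg Subtype.val ht)⟩
        rw [H19.inf_eq_bot_of_isPGroup_coprime T₀.2 hOc, mem_bot] at h1
        exact Subtype.ext (congrArg ι h1)
      · obtain ⟨y, hy⟩ := y
        have hy' := hy
        rw [hTXc, ← hjrange, Subgroup.map_map] at hy'
        obtain ⟨t, -, ht⟩ := hy'
        exact ⟨t, Subtype.ext ht⟩
    set E := MulEquiv.ofBijective _ hbij with hE
    set WT := (W.subgroupOf (TX : Subgroup (M ⧸ O))).comap E.toMonoidHom with hWT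
    have hWTc : WT.Characteristic := by
      refine characteristic_iff_comap_eq.2 fun φ => ?_
      have hcomp : E.toMonoidHom.comp φ.toMonoidHom =
          ((E.symm.trans φ).trans E).toMonoidHom.comp E.toMonoidHom := by
        ext t
        simp
      rw [hWT, Subgroup.comap_comap, hcomp, ← Subgroup.comap_comap,
        characteristic_iff_comap_eq.1 hWc]
    set W₀ := WT.map jT with hW₀
    have hW₀ρ : W₀.map ρ = W := by
      refine le_antisymm ?_ fun y hy => ?_
      · rintro _ ⟨_, ⟨t, ht, rfl⟩, rfl⟩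
        exact ht
      · obtain ⟨t, ht⟩ := E.surjective ⟨y, hW hy⟩
        refine ⟨jT t, mem_map_of_mem jT ?_, congrArg Subtype.val ht⟩
        show (E t : M ⧸ O) ∈ W
        rw [ht]; exact hy
    obtain ⟨g, rfl⟩ := hρs x
    obtain ⟨o, ho, hog⟩ := H34.exists_mem_normalizer_of_mk ((hTS.to_subgroup WT).map jT) hOc
      (hW₀ρ.symm ▸ hx : ρ g ∈ normalizer ((W₀.map ρ : Subgroup (M ⧸ O)) : Set (M ⧸ O)))
    have hρog : ρ (o * g) = ρ g := by
      rw [map_mul, show ρ o = 1 from (QuotientGroup.eq_one_iff o).2 ho, one_mul]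
    obtain ⟨e, ⟨i, hi⟩, he⟩ := exists_qPart (q := q) ρ (o * g) (k := k) (by rw [hρog]; exact hk)
    have hWG : W₀.map ι = WT.map T.subtype := by rw [hW₀, Subgroup.map_map, hιj]
    have hcW : ι ((o * g) ^ e) ∈ centralizer ((W₀.map ι : Subgroup G) : Set G) := by
      refine hstar _ ?_ ?_ _ (le_normalizer_map _ ⟨_, pow_mem hog e, rfl⟩)
        ⟨i, by rw [← map_pow, hi, map_one]⟩
      · rw [hWG]; exact map_subtype_le _
      · rw [hWG]; exact normalizer_le_normalizer_map hWTc
    rw [← hρog, ← he, mem_centralizer_iff]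
    intro y hy
    rw [SetLike.mem_coe, ← hW₀ρ] at hy
    obtain ⟨w, hw, rfl⟩ := hy
    rw [← map_mul, ← map_mul]
    refine congrArg ρ (hιinj ?_)
    rw [map_mul, map_mul]
    exact mem_centralizer_iff.1 hcW _ (mem_map_of_mem ι hw)
  obtain ⟨k, hk⟩ := IsPGroup.iff_card.1 hPX
  have hd : q ∣ p ^ k := hk ▸ (hqL.trans (hC₀i ▸ index_dvd_of_le hOC))
  exact hpq ((Nat.prime_dvd_prime_iff_eq hq.out hp.out).1 (hq.out.dvd_of_dvd_pow hd)).symm

/-- The theorem. -/
theorem exists_normal_in_sylow {G : Type u} [Group G] [Finite G] (hpq : p ≠ q) (h23 : p = 2 → q ≠ 3)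
    (hsol : ∀ H : Subgroup G, IsPGroup p ↥H →
      Cfsg.IsPSolvable p (↥(normalizer (H : Set G)) ⧸
        (centralizer (H : Set G)).subgroupOf (normalizer (H : Set G))))
    {H₀ : Subgroup G} (hH₀ : IsPGroup p H₀) (hm₀ : Moves q H₀) (P : Sylow p G) :
    ∃ K : Subgroup G, K ≤ (P : Subgroup G) ∧ (P : Subgroup G) ≤ normalizer (K : Set G) ∧ Moves q K := by
  obtain ⟨⟨H, T⟩, ⟨hHT, hTS, hTN, hm⟩, hmax⟩ := Set.Finite.exists_maximalFor
    (fun a : Subgroup G × Subgroup G => Nat.card a.2) (Pairs p q G) (Set.toFinite _)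
    ⟨(H₀, H₀), le_rfl, hH₀, le_normalizer, hm₀⟩
  dsimp only at hHT hTS hTN hm hmax
  have hbig : ∀ W U : Subgroup G, W ≤ U → IsPGroup p U → U ≤ normalizer (W : Set G) → Moves q W →
      Nat.card U ≤ Nat.card T := by
    intro W U h1 h2 h3 h4
    exact (le_total (Nat.card U) (Nat.card T)).elim id
      fun h => hmax (show (W, U) ∈ Pairs p q G from ⟨h1, h2, h3, h4⟩) h
  by_cases hTsyl : ¬ p ∣ T.index
  · obtain ⟨g, hg⟩ := MulAction.exists_smul_eq G (hTS.toSylow hTsyl) P
    have hP : T.map (MulAut.conj g).toMonoidHom = (P : Subgroup G) := by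
      rw [← hg, Sylow.coe_subgroup_smul]; rfl
    refine ⟨H.map (MulAut.conj g).toMonoidHom, hP ▸ map_mono hHT, ?_, hm.map_conj g⟩
    rw [← hP]
    exact (map_mono hTN).trans (le_normalizer_map _)
  exfalso
  rw [not_not] at hTsyl
  -- a larger `p`-group normalising `T`
  obtain ⟨U, hTU, hUp, hUN, hUc⟩ : ∃ U : Subgroup G, T ≤ U ∧ IsPGroup p U ∧
      U ≤ normalizer (T : Set G) ∧ Nat.card T < Nat.card U := by
    obtain ⟨n, hn⟩ := hTS.exists_card_eq
    have hdvd : p ^ (n + 1) ∣ Nat.card G := by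
      rw [← card_mul_index T, hn, pow_succ]
      exact Nat.mul_dvd_mul_left _ hTsyl
    obtain ⟨U, hU, hTU⟩ := Sylow.exists_subgroup_card_pow_succ hdvd hn
    refine ⟨U, hTU, IsPGroup.of_card hU, ?_, ?_⟩
    · refine normal_subgroupOf_iff_le_normalizer hTU |>.1 ?_
      haveI : Fact (IsPGroup p U) := ⟨IsPGroup.of_card hU⟩
      have hidx : (T.subgroupOf U).index = p := by
        have h := card_mul_index (T.subgroupOf U)
        rw [Nat.card_congr (subgroupOfEquivOfLe hTU).toEquiv, hU, hn, pow_succ] at h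
        exact Nat.eq_of_mul_eq_mul_left (pow_pos hp.out.pos n) h
      refine normal_of_index_eq_minFac_card ?_
      rw [hidx, hU, Nat.pow_minFac (Nat.succ_ne_zero n), hp.out.minFac_eq]
    · rw [hU, hn]
      exact Nat.pow_lt_pow_right hp.out.one_lt (Nat.lt_succ_self n)
  have hstar : ∀ W : Subgroup G, W ≤ T → normalizer (T : Set G) ≤ normalizer (W : Set G) →
      ∀ x ∈ normalizer (W : Set G), (∃ j : ℕ, x ^ q ^ j = 1) → x ∈ centralizer (W : Set G) := by
    intro W hW hWN x hx hxq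
    by_contra hc
    exact (hbig W U (hW.trans hTU) hUp (hUN.trans hWN) ⟨x, hx, hxq, hc⟩).not_gt hUc
  have hidx : ∀ R : Subgroup G, R ≤ T → T ≤ normalizer (R : Set G) → Moves q R →
      ¬ p ∣ T.relIndex (normalizer (R : Set G)) := by
    intro R hR hRN hRm
    set NR := normalizer (R : Set G) with hNR
    obtain ⟨S, hS⟩ := (hTS.of_equiv (subgroupOfEquivOfLe hRN).symm).exists_le_sylow
    let S' : Subgroup G := (S : Subgroup NR).map NR.subtype
    have hle : T ≤ S' := (map_subgroupOf_eq_of_le hRN).symm.le.trans (map_mono hS)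
    have hcard : Nat.card S' ≤ Nat.card T :=
      hbig R S' (hR.trans hle) (S.2.map NR.subtype) (map_subtype_le (S : Subgroup NR)) hRm
    have he : T = S' := eq_of_le_of_card_ge hle hcard
    have hS'i : S'.subgroupOf NR = (S : Subgroup NR) :=
      comap_map_eq_self_of_injective (subtype_injective NR) _
    intro h
    refine S.not_dvd_index ?_
    rw [← hS'i, ← he]
    exact h
  obtain ⟨R, hRT, hTR, hRm, hRc⟩ := exists_centric hHT hTN hTS (hidx H hHT hTN hm) hm
  exact not_moves hpq h23 hRT hTR hTS (hidx R hRT hTR hRm) hRc (hsol R (hTS.to_le hRT)) hstar hRm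

end Cfsg.Agent.H91.Automizer
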